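import Mathlib
import Cfsg.Agent.Lib.ClSys.Eps
import Cfsg.Agent.Lib.St.Unip

/-!
The Steinberg character of a group with a system of root elements, in the form used for the classical groups.
-/

set_option autoImplicit false

namespace CfsgLib.ClSys

open CfsgLib.RGD

variable {ι κ : Type} [Fintype κ] [DecidableEq κ] {Φ : RootSys ι κ} {F : Type*} [Field F]
  {G : Type*} [Group G] {S : StSys Φ F G}

theorem not_dvd_card_units [Finite F] (p : ℕ) [Fact p.Prime] [CharP F p] : ¬ p ∣ Nat.card Fˣ := by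
  obtain ⟨n, hn, h⟩ := St.exists_card_eq_pow F p
  rw [Nat.card_units, h]
  intro hd
  have h1 : p ∣ p ^ n := dvd_pow_self p hn.ne'
  have h2 : 1 ≤ p ^ n := Nat.one_le_pow _ _ (Fact.out : p.Prime).pos
  have := Nat.dvd_sub h1 hd
  rw [Nat.sub_sub_self h2] at this
  exact (Fact.out : p.Prime).one_lt.ne' (Nat.dvd_one.1 this)

theorem not_dvd_card_H_of_r3 [Finite F] (h3 : Stein.R3 S) (p : ℕ) [Fact p.Prime] [CharP F p] :
    ¬ p ∣ Nat.card S.H := by
  rw [← h3.range_hHom (Finset.nodup_toList Finset.univ) (by simp)]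
  intro h
  have := h.trans (Subgroup.card_range_dvd _)
  rw [Nat.card_fun] at this
  exact not_dvd_card_units p ((Fact.out : p.Prime).dvd_of_dvd_pow this)

/-- `U` is a Sylow `p`-subgroup -/
theorem card_sylow_eq [Finite ι] [Finite F] [Finite G] (hS : S.Nondeg) (htop : S.grp = ⊤) (h3 : Stein.R3 S)
    (p : ℕ) [Fact p.Prime] [CharP F p] (P : Sylow p G) :
    Nat.card P = Nat.card F ^ {r | Φ.Pos r}.ncard := by
  let Q : Sylow p G := (St.isPGroup_U hS p).toSylow (St.not_dvd_index_U hS htop p (not_dvd_card_H_of_r3 h3 p))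
  rw [Nat.card_congr (P.equiv Q).toEquiv]
  exact hS.card_UU Φ.closed_pos fun _ h => h

/-- the Steinberg character: irreducible, restricting to the regular character on a Sylow `p`-subgroup -/
theorem exists_steinberg_character [Finite ι] [Finite F] [Finite G] (hS : S.Nondeg) (htop : S.grp = ⊤)
    (h3 : Stein.R3 S) (p : ℕ) [Fact p.Prime] [CharP F p] :
    ∃ χ : G → ℂ, Cfsg.IsIrrCharacter G χ ∧ ∀ P : Sylow p G, χ 1 = Nat.card P ∧
      ∀ x : G, x ∈ P → x ≠ 1 → χ x = 0 := by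
  refine ⟨St.st S, St.isIrr_st hS htop, fun P => ⟨?_, fun x hx h1 => ?_⟩⟩
  · rw [St.st_one hS htop, card_sylow_eq hS htop h3 p P, Nat.cast_pow]
  · refine St.st_eq_zero hS htop p (not_dvd_card_H_of_r3 h3 p) ?_
    obtain ⟨k, hk⟩ := IsPGroup.iff_orderOf.1 P.isPGroup' ⟨x, hx⟩
    rw [Subgroup.orderOf_mk] at hk
    rw [hk]
    refine dvd_pow_self p fun h0 => h1 ?_
    rwa [h0, pow_zero, orderOf_eq_one_iff] at hk

theorem card_pElt_of_r3 [Finite ι] [Finite F] [Finite G] (hS : S.Nondeg) (htop : S.grp = ⊤) (h3 : Stein.R3 S)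
    (p : ℕ) [Fact p.Prime] [CharP F p] :
    Nat.card {g : G // ∃ k, orderOf g = p ^ k} = Nat.card F ^ (2 * {r | Φ.Pos r}.ncard) :=
  St.card_pElt hS htop p (not_dvd_card_H_of_r3 h3 p)

end CfsgLib.ClSys
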